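import Mathlib
import Cfsg.Agent.Lang.ClsSq

/-!
Gauss decomposition with respect to the opposite unipotent subgroup of a split Tits system.
-/

set_option autoImplicit false
set_option linter.unusedSectionVars false

namespace Cfsg.Agent.Lang

open Cfsg.Agent.St Cfsg.Agent.Chev Cfsg.Agent.UL Subgroup

variable {p : ℕ} [Fact p.Prime] {G ι W : Type*} [Group G] [Group W] (T : Split p G ι W)

/-- The conjugate `n U n⁻¹`. -/
def opp (n : G) : Subgroup G := T.U.comap (MulAut.conj n⁻¹).toMonoidHom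

theorem mem_opp {n v : G} : v ∈ opp T n ↔ n⁻¹ * v * n ∈ T.U := by simp [opp]

/-- The commutators `[h, m⁻¹]`, `h ∈ H`. -/
def commH (hc : ∀ a ∈ T.H, ∀ b ∈ T.H, a * b = b * a) {m : G} (hm : m ∈ T.N) : Subgroup G where
  carrier := {c | ∃ h ∈ T.H, c = h * (m⁻¹ * h⁻¹ * m)}
  one_mem' := ⟨1, one_mem _, by simp⟩
  mul_mem' := by
    rintro _ _ ⟨a, ha, rfl⟩ ⟨b, hb, rfl⟩
    refine ⟨a * b, mul_mem ha hb, ?_⟩
    rw [mul_assoc a, ← mul_assoc _ b, hc _ (T.conj_mem_H' hm (inv_mem ha)) b hb, hc a ha b hb]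
    nth_rewrite 1 [← hc a ha b hb]
    group
  inv_mem' := by
    rintro _ ⟨a, ha, rfl⟩
    exact ⟨a⁻¹, inv_mem ha, by rw [hc a ha _ (T.conj_mem_H' hm (inv_mem ha))]; group⟩

theorem commH_le (hc : ∀ a ∈ T.H, ∀ b ∈ T.H, a * b = b * a) {m : G} (hm : m ∈ T.N) :
    commH T hc hm ≤ T.H := by
  rintro _ ⟨a, ha, rfl⟩
  exact mul_mem ha (T.conj_mem_H' hm (inv_mem ha))

variable {T} [Finite G] {n : G} (hn : n ∈ T.N) (ho : ∀ u ∈ T.U, n⁻¹ * u * n ∈ T.U → u = 1)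
include hn

theorem conj_mem_opp : ∀ h ∈ T.H, ∀ v ∈ opp T n, h * v * h⁻¹ ∈ opp T n := fun h hh v hv => by
  have := T.conj_U _ (T.conj_mem_H' hn hh).1 _ ((mem_opp T).1 hv)
  exact (mem_opp T).2 (by convert this using 1; group)

include ho

theorem gauss_commH (hc : ∀ a ∈ T.H, ∀ b ∈ T.H, a * b = b * a) {m : G} {i : ι} (hm : m ∈ T.N)
    (hw : T.wt m = T.s i) : ∃ k ∈ T.H, ∀ c ∈ commH T hc hm, Gauss T (opp T n) m (k * c) := by
  obtain ⟨⟨x, hx⟩, hx1⟩ := ne_bot_iff_exists_ne_one.1 (rootX_ne_bot T i)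
  replace hx1 : x ≠ 1 := fun e => hx1 (Subtype.ext e)
  have h1 : LD T.s (T.wt n) i := by_contra fun h => hx1 (ho x hx.1 (conj_rootX_mem_U T hx hn h))
  have h2 : m⁻¹ * x * m ∈ opp T n := (mem_opp T).2 (by
    convert conj_rootX_mem_U T hx (mul_mem hm hn) (by
      rw [T.wt_N_mul hm hn, hw, T.cox.LD_gen_mul, not_not]; exact h1) using 1
    group)
  have hm' := mem_par_gen T.toTits hw
  have h3 := wt_eq_gen_of_mem T.toTits (mul_mem (mul_mem (inv_mem hm')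
    (T.B_le_par _ (T.U_le hx.1))) hm') fun h => hx1 (eq_one_of_rootX_fix T hx hw h)
  obtain ⟨a, ha, h4⟩ := exists_rootX_map T hw h3
  obtain ⟨k, hk, u, hu, e⟩ := T.exists_HU h4
  refine ⟨k, hk, ?_⟩
  rintro _ ⟨h, hh, rfl⟩
  have h5 := T.conj_mem_H' hm (inv_mem hh)
  refine ⟨_, T.conj_U _ hh.1 _ ha.1, _, conj_mem_opp hn h hh _ h2, _,
    T.conj_U' h5.1 hu, ?_⟩
  rw [← mul_assoc k, ← hc h hh k hk]
  calc _ = h * (m⁻¹ * x * m) * ((m⁻¹ * x * m)⁻¹ * a * m) * (m⁻¹ * h⁻¹ * m) := by group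
    _ = _ := by rw [e]; group

variable {M : Subgroup G} (hU : T.U ≤ M) (hq : ∀ N : Subgroup G, N.Normal → T.U ≤ N ∨ N ⊓ M ≤ center G)
include hU hq

theorem le_center_of_le_par {J : Set ι} (hJ : J ≠ Set.univ) : (T.par J).normalCore ⊓ M ≤ center G := by
  refine (hq _ inferInstance).resolve_left fun h => ?_
  obtain ⟨i, hi⟩ := (Set.ne_univ_iff_exists_notMem J).1 hJ
  obtain ⟨⟨x, hx⟩, hx1⟩ := ne_bot_iff_exists_ne_one.1 (rootX_ne_bot T i)
  obtain ⟨m, hw⟩ := T.wt_surjective (T.s i)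
  have hm' := mem_par_gen T.toTits hw
  have h3 := wt_eq_gen_of_mem T.toTits (mul_mem (mul_mem (inv_mem hm')
    (T.B_le_par _ (T.U_le hx.1))) hm') fun h => hx1 (Subtype.ext (eq_one_of_rootX_fix T hx hw h))
  have h4 := h hx.1 m⁻¹
  rw [inv_inv, Tits.mem_par, h3] at h4
  exact hi (T.cox.mem_of_LD h4 (by simpa using T.cox.LD_gen_mul.2 (T.cox.not_LD_one i)))

theorem irred_of_le_center : Irred T.toTits := by
  intro I hI hI'
  by_contra! hc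
  have hcomm : ∀ u ∈ WJ T.s I, ∀ v ∈ WJ T.s Iᶜ, u * v = v * u := by
    intro u hu v hv
    refine (mem_centralizer_iff.1 (closure_le_centralizer_centralizer _ hu) v ?_).symm
    refine (closure_le (K := centralizer (T.s '' I))).2 ?_ hv
    rintro _ ⟨j, hj, rfl⟩ _ ⟨i, hi, rfl⟩
    exact hc i hi j hj
  have hdec : ∀ g, ∃ u ∈ WJ T.s I, ∃ v ∈ WJ T.s Iᶜ, T.wt g = u * v := by
    intro g
    induction g using wt_induction T.toTits with
    | h0 b hb => exact ⟨1, one_mem _, 1, one_mem _, by rw [T.wt_of_mem hb, mul_one]⟩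
    | h1 y z i hz hy ih =>
      obtain ⟨u, hu, v, hv, e⟩ := ih
      rw [T.mul_gen_up hz hy, e]
      by_cases hi : i ∈ I
      · exact ⟨u * T.s i, mul_mem hu (gen_mem_WJ hi), v, hv, by
          rw [mul_assoc, mul_assoc, hcomm _ (gen_mem_WJ hi) v hv]⟩
      · exact ⟨u, hu, v * T.s i, mul_mem hv (gen_mem_WJ hi), mul_assoc _ _ _⟩
  refine R_ne_bot T hI' (eq_bot_iff.2 fun r hr => ho r (T.R_le_U _ hr) ?_)
  rw [mul_assoc, ← mem_center_iff.1 (le_center_of_le_par hn ho hU hq (Set.compl_ne_univ.2 hI)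
    ⟨fun g => ?_, hU (T.R_le_U _ hr)⟩) n, inv_mul_cancel_left]
  · exact T.R_le_U _ hr
  obtain ⟨u, hu, v, hv, e⟩ := hdec g⁻¹
  obtain ⟨y, z, rfl, rfl, e'⟩ := T.exists_mul_eq e
  rw [inv_eq_iff_eq_inv] at e'
  have := mul_mem (mul_mem (inv_mem (T.mem_par.2 hv)) (T.R_le_par I Iᶜ (T.conj_mem_R' hu hr)))
    (T.mem_par.2 hv)
  convert this using 1
  rw [e']; group

theorem exists_gauss_opp [Nonempty ι] (hc : ∀ a ∈ T.H, ∀ b ∈ T.H, a * b = b * a)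
    (K : ι → Subgroup G) (hK : ∀ i, K i ≤ T.H)
    (h1 : ∀ i, ∃ m ∈ T.N, T.wt m = T.s i ∧ ∃ k ∈ T.H, ∀ c ∈ K i, Gauss T (opp T n) m (k * c))
    {g : G} (hg : g ∈ M) (hg' : g ∉ center G) :
    ∃ k ∈ T.H, ∀ c ∈ ⨆ i, K i, ∃ y, ∃ v ∈ opp T n, ∃ u ∈ T.U, y * g * y⁻¹ = v * (k * c) * u :=
  exists_gauss' (conj_mem_opp hn) (irred_of_le_center hn ho hU hq) hc K hK h1 fun h =>
    hg' (le_center_of_le_par hn ho hU hq Set.empty_ne_univ ⟨by rwa [T.par_empty], hg⟩)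

end Cfsg.Agent.Lang
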