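import Mathlib
import Cfsg.Agent.Lang.GaussOpp
import Cfsg.Agent.KSG.SplitO
import Cfsg.Agent.KSG.AutMat
import Cfsg.Agent.Class.Orth.Simple
import Cfsg.Agent.Class.Sp.Simple

/-!
Squares of conjugacy classes in the symplectic and split orthogonal groups.
-/

set_option autoImplicit false
set_option linter.unusedSectionVars false

namespace Cfsg.Agent.Lang

open Cfsg.Agent.St Cfsg.Agent.Class Cfsg.Agent.KSG Cfsg.Agent.KSG.FB Subgroup
open Matrix hiding zpow_add zpow_sub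

variable {F V : Type*} [Field F] [AddCommGroup V] [Module F V] [FiniteDimensional F V]
  {B : V →ₗ[F] V →ₗ[F] F} {Q : V → F} {ε : F} {π : F →+ F} {m : ℕ} {f : Fin (2 * m) → V}

theorem lo_or_rev (k : Fin (2 * m)) : ∃ i, k = lo i ∨ k = (lo i).rev := by
  by_cases h : k.val < m
  · exact ⟨⟨k, h⟩, .inl rfl⟩
  · exact ⟨⟨k.rev, by rw [Fin.val_rev]; omega⟩, .inr (Fin.rev_rev k).symm⟩

theorem lo_inj {i j : Fin m} : lo i = lo j ↔ i = j := by simp [Fin.ext_iff]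

theorem lo_ne_rev (i j : Fin m) : lo i ≠ (lo j).rev := fun e => by
  have := congrArg Fin.val e
  simp only [val_lo, Fin.val_rev] at this
  omega

/-- The labelling attached to the maximal isotropic subspace. -/
def sgn (k : Fin (2 * m)) : ℤ := if k.val < m then -1 else 1

theorem sgn_rev (k : Fin (2 * m)) : sgn k.rev = -sgn k := by
  simp only [sgn, Fin.val_rev]
  split_ifs <;> omega

theorem sgn_lo (i : Fin m) : sgn (lo i) = -1 := if_pos i.2

theorem sgn_mono : Monotone (sgn (m := m)) := fun k l h => by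
  simp only [sgn, Fin.le_def] at h ⊢
  split_ifs <;> omega

variable (B Q ε π) in
/-- A normalised maximal frame. -/
structure NF (f : Fin (2 * m) → V) : Prop extends MF B Q ε π f where
  one : ∀ i : Fin m, B (f (lo i).rev) (f (lo i)) = 1

variable (B Q f) in
/-- The radical of the stabiliser of the maximal isotropic subspace. -/
abbrev Rad : Subgroup (Isom B Q) := radF B Q (fil B f sgn)

namespace NF

variable (D : NF B Q ε π f)
include D

theorem b21 (i j : Fin m) : B (f (lo i).rev) (f (lo j)) = if i = j then 1 else 0 := by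
  split_ifs with h
  · rw [h, D.one]
  · exact D.hf.orth _ _ (lo_inj.not.2 h)

theorem b12 (i j : Fin m) : B (f (lo i)) (f (lo j).rev) = if j = i then ε else 0 := by
  rw [D.h.symm, D.b21]
  split_ifs <;> simp

theorem b11 (i j : Fin m) : B (f (lo i)) (f (lo j)) = 0 := D.hf.orth' (lo_ne_rev _ _)

theorem b22 (i j : Fin m) : B (f (lo i).rev) (f (lo j).rev) = 0 := D.hf.orth _ _ (lo_ne_rev _ _)

theorem eps (i : Fin m) : ε * ε = 1 := by simpa [D.one] using D.h.eps_mul (f (lo i).rev) (f (lo i))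

theorem eq_zero {v : V} (h1 : ∀ i, B (f (lo i)) v = 0) (h2 : ∀ i, B (f (lo i).rev) v = 0)
    (h3 : ∀ u ∈ V0 B f, B u v = 0) : v = 0 :=
  eq_zero_of_frame D.h D.hf (fun k => by obtain ⟨i, rfl | rfl⟩ := lo_or_rev k; exacts [h1 i, h2 i]) h3

omit D in
theorem ext_frame {g g' : Isom B Q} (h1 : ∀ k, g.1 (f k) = g'.1 (f k))
    (h2 : ∀ u ∈ V0 B f, g.1 u = g'.1 u) (hf : IsFrame B Q f) : g = g' := Isom.ext' fun v => by
  rw [eq_sum_add_p0 (B := B) f v]
  simp only [map_add, map_sum, map_smul, h1, h2 _ (hf.p0_mem v)]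

theorem exists_isom {a b : Fin m → V} (ha : ∀ i, Q (a i) = 0) (hb : ∀ i, Q (b i) = 0)
    (haa : ∀ i j, B (a i) (a j) = 0) (hbb : ∀ i j, B (b i) (b j) = 0)
    (hba : ∀ i j, B (b i) (a j) = if i = j then 1 else 0)
    (h0 : ∀ u ∈ V0 B f, ∀ i, B (a i) u = 0 ∧ B (b i) u = 0) :
    ∃ g : Isom B Q, (∀ i, g.1 (f (lo i)) = a i) ∧ (∀ i, g.1 (f (lo i).rev) = b i) ∧
      ∀ u ∈ V0 B f, g.1 u = u := by
  let φ : V →ₗ[F] V := ∑ i, (B (f (lo i).rev)).smulRight (a i) +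
    ∑ i, (ε • B (f (lo i))).smulRight (b i) + p0 B f
  have φ1 : ∀ j, φ (f (lo j)) = a j := fun j => by
    simp [φ, LinearMap.sum_apply, D.b21, D.b11, D.hf.p0_frame]
  have φ2 : ∀ j, φ (f (lo j).rev) = b j := fun j => by
    simp [φ, LinearMap.sum_apply, D.b22, D.b12, D.hf.p0_frame, D.eps j]
  have φ3 : ∀ u ∈ V0 B f, φ u = u := fun u hu => by
    simp [φ, LinearMap.sum_apply, p0_of_mem hu, show ∀ k, B (f k) u = 0 from hu]
  have φ4 : ∀ k, ∀ u ∈ V0 B f, B (φ (f k)) u = 0 := fun k u hu => by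
    obtain ⟨i, rfl | rfl⟩ := lo_or_rev k
    exacts [φ1 i ▸ (h0 u hu i).1, φ2 i ▸ (h0 u hu i).2]
  obtain ⟨hB, hQ⟩ := D.h.isometric_span φ (Set.range f ∪ V0 B f) (by
    rintro x (⟨k, rfl⟩ | hx) y (⟨l, rfl⟩ | hy)
    · obtain ⟨i, rfl | rfl⟩ := lo_or_rev k <;> obtain ⟨j, rfl | rfl⟩ := lo_or_rev l
      · rw [φ1, φ1, haa, D.b11]
      · exact D.h.congr_symm (by rw [φ1, φ2, hba, D.b21])
      · rw [φ1, φ2, hba, D.b21]
      · rw [φ2, φ2, hbb, D.b22]
    · rw [φ3 y hy, φ4 k y hy, hy]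
    · rw [φ3 x hx, D.h.refl (φ4 l x hx), D.h.refl (hx l)]
    · rw [φ3 x hx, φ3 y hy]) (by
    rintro x (⟨k, rfl⟩ | hx)
    · obtain ⟨i, rfl | rfl⟩ := lo_or_rev k
      · rw [φ1, ha, D.hf.sing]
      · rw [φ2, hb, D.hf.sing]
    · rw [φ3 x hx])
  have hsp : ∀ x, x ∈ Submodule.span F (Set.range f ∪ V0 B f) := fun x => by
    rw [eq_sum_add_p0 (B := B) f x]
    exact add_mem (sum_mem fun k _ => Submodule.smul_mem _ _
      (Submodule.subset_span (Or.inl ⟨k, rfl⟩))) (Submodule.subset_span (Or.inr (D.hf.p0_mem x)))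
  exact ⟨⟨LinearEquiv.ofInjectiveEndo φ (D.h.injective_of_preserves φ fun x y =>
    hB x (hsp x) y (hsp y)), fun x y => hB x (hsp x) y (hsp y), fun x => hQ x (hsp x)⟩, φ1, φ2, φ3⟩

theorem sum_mem_fil (c : Fin m → F) : ∑ i, c i • f (lo i) ∈ fil B f sgn (-1) :=
  sum_mem fun i _ => Submodule.smul_mem _ _ (frame_mem_fil D.h D.hf (sgn_lo i).le)

theorem eq_sum {v : V} (hv : v ∈ fil B f sgn (-1)) : v = ∑ i, B (f (lo i).rev) v • f (lo i) := by
  have := sub_mem hv (D.sum_mem_fil fun i => B (f (lo i).rev) v)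
  refine sub_eq_zero.1 (D.eq_zero (fun i => ?_) (fun i => by simp [D.b21]) (this.2 (by decide)))
  simpa using this.1 (lo i).rev (by rw [sgn_rev, sgn_lo]; decide)

theorem exists_lev (A : GL (Fin m) F) : ∃ g : Isom B Q,
    (∀ j, g.1 (f (lo j)) = ∑ i, A.1 i j • f (lo i)) ∧
    (∀ j, g.1 (f (lo j).rev) = ∑ i, (A⁻¹).1 j i • f (lo i).rev) ∧ ∀ u ∈ V0 B f, g.1 u = u := by
  refine D.exists_isom (fun j => Q_eq_zero_of_fil D.h D.hf sgn_rev (by decide) (D.sum_mem_fil _))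
    (fun j => Q_eq_zero_of_fil D.h D.hf (a := -sgn) (fun k => congrArg Neg.neg (sgn_rev k))
      (t := -1) (by decide) (sum_mem fun i _ => Submodule.smul_mem _ _ (frame_mem_fil D.h D.hf
        (by simp [sgn_rev, sgn_lo])))) (fun i j => by simp [D.b11]) (fun i j => by simp [D.b22])
    (fun i j => ?_) fun u hu i => by simp [LinearMap.sum_apply, show ∀ k, B (f k) u = 0 from hu]
  rw [← one_apply, ← A.inv_mul, mul_apply]
  simp [LinearMap.sum_apply, D.b21, mul_comm]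

/-- The Levi subgroup `GL_m`. -/
noncomputable def lev : GL (Fin m) F →* Isom B Q := MonoidHom.mk' (fun A => (D.exists_lev A).choose)
  fun A A' => by
    obtain ⟨a1, a2, a3⟩ := (D.exists_lev A).choose_spec
    obtain ⟨b1, b2, b3⟩ := (D.exists_lev A').choose_spec
    obtain ⟨c1, c2, c3⟩ := (D.exists_lev (A * A')).choose_spec
    refine ext_frame (fun k => ?_) (fun u hu => by rw [Isom.mul_apply, c3 u hu, b3 u hu, a3 u hu]) D.hf
    obtain ⟨j, rfl | rfl⟩ := lo_or_rev k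
    · rw [c1]
      simp only [Isom.mul_apply, b1, map_sum, map_smul, a1, Units.val_mul, mul_apply,
        Finset.sum_smul, Finset.smul_sum, smul_smul, mul_comm]
      exact Finset.sum_comm
    · rw [c2]
      simp only [Isom.mul_apply, b2, map_sum, map_smul, a2, _root_.mul_inv_rev, Units.val_mul,
        mul_apply, Finset.sum_smul, Finset.smul_sum, smul_smul]
      exact Finset.sum_comm

theorem lev_lo (A : GL (Fin m) F) (j : Fin m) : (D.lev A).1 (f (lo j)) = ∑ i, A.1 i j • f (lo i) :=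
  (D.exists_lev A).choose_spec.1 j

theorem lev_rev (A : GL (Fin m) F) (j : Fin m) :
    (D.lev A).1 (f (lo j).rev) = ∑ i, (A⁻¹).1 j i • f (lo i).rev :=
  (D.exists_lev A).choose_spec.2.1 j

theorem lev_V0 (A : GL (Fin m) F) {u : V} (hu : u ∈ V0 B f) : (D.lev A).1 u = u :=
  (D.exists_lev A).choose_spec.2.2 u hu

theorem eq_lev {g : Isom B Q} {A : GL (Fin m) F} (h1 : ∀ j, g.1 (f (lo j)) = ∑ i, A.1 i j • f (lo i))
    (h2 : ∀ i j, B (f (lo i).rev) (g.1 (f (lo j).rev)) = 0) (h3 : ∀ u ∈ V0 B f, g.1 u = u) :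
    g = D.lev A := by
  refine ext_frame (fun k => ?_) (fun u hu => by rw [h3 u hu, D.lev_V0 A hu]) D.hf
  obtain ⟨j, rfl | rfl⟩ := lo_or_rev k
  · rw [h1, D.lev_lo]
  refine sub_eq_zero.1 (D.eq_zero (fun i => ?_) (fun i => by simp [h2, D.lev_rev, D.b22])
    fun u hu => ?_)
  · have e : f (lo i) = g.1 (∑ l, (A⁻¹).1 l i • f (lo l)) := by
      simp only [map_sum, map_smul, h1, Finset.smul_sum, smul_smul]
      rw [Finset.sum_comm]
      simp only [← Finset.sum_smul, mul_comm ((A⁻¹).1 _ _), ← mul_apply, A.mul_inv]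
      simp [one_apply]
    rw [map_sub]
    nth_rewrite 1 [e]
    simp [Isom.map_B, D.lev_rev, D.b12, LinearMap.sum_apply]
  · rw [map_sub, ← h3 u hu, Isom.map_B, h3 u hu, ← D.lev_V0 A hu, Isom.map_B, D.lev_V0 A hu, sub_self]

theorem lev_dgl_lo (γ : Fin m → Fˣ) (j : Fin m) :
    (D.lev (dgl γ)).1 (f (lo j)) = (γ j : F) • f (lo j) := by
  simp [D.lev_lo, coe_dgl, diagonal_apply]

theorem lev_dgl_rev (γ : Fin m → Fˣ) (j : Fin m) :
    (D.lev (dgl γ)).1 (f (lo j).rev) = (γ j : F)⁻¹ • f (lo j).rev := by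
  rw [D.lev_rev, ← map_inv, coe_dgl]
  simp [diagonal_apply]

theorem acts_lev_dgl (γ : Fin m → Fˣ) : Acts f (D.lev (dgl γ)) 1 := fun k => by
  obtain ⟨j, rfl | rfl⟩ := lo_or_rev k
  exacts [⟨_, (γ j).ne_zero, D.lev_dgl_lo γ j⟩, ⟨_, inv_ne_zero (γ j).ne_zero, D.lev_dgl_rev γ j⟩]

theorem eq_lev_dgl {g : Isom B Q} (h : Acts f g 1) (h0 : ∀ u ∈ V0 B f, g.1 u = u) {γ : Fin m → Fˣ}
    (h1 : ∀ j, g.1 (f (lo j)) = (γ j : F) • f (lo j)) : g = D.lev (dgl γ) :=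
  D.eq_lev (fun j => by rw [h1, ← D.lev_lo, D.lev_dgl_lo]) (fun i j => by
    obtain ⟨c, -, e⟩ := h (lo j).rev
    simp [e, D.b22]) h0

theorem exists_dgl {g : Isom B Q} (h : Acts f g 1) (h0 : ∀ u ∈ V0 B f, g.1 u = u) :
    ∃ γ, g = D.lev (dgl γ) := by
  choose c c1 c2 using fun j => h (lo j)
  exact ⟨fun j => Units.mk0 _ (c1 j), D.eq_lev_dgl h h0 c2⟩

theorem lev_mem_stab (A : GL (Fin m) F) : D.lev A ∈ stabF B Q (fil B f sgn) :=
  mem_stabF_fil D.h D.hf D.hm sgn_rev fun j hj k hk => by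
    obtain ⟨a, rfl | rfl⟩ := lo_or_rev j
    · exact (D.lev_lo A a ▸ D.sum_mem_fil _).1 k (by rwa [sgn_lo] at hk)
    · simp [sgn_rev, sgn_lo] at hj

theorem lev_mem_normalizer (A : GL (Fin m) F) :
    D.lev A ∈ normalizer (Rad B Q f : Set (Isom B Q)) := mem_normalizer_iff''.2 fun _ =>
  ⟨conj_mem_radF (D.lev_mem_stab A), fun h => by
    simpa [mul_assoc] using conj_mem_radF (inv_mem (D.lev_mem_stab A)) h⟩

theorem mem_Rad {g : Isom B Q} (h1 : ∀ j, g.1 (f (lo j)) = f (lo j))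
    (h2 : ∀ u ∈ V0 B f, g.1 u - u ∈ fil B f sgn (-1)) : g ∈ Rad B Q f :=
  mem_radF_fil D.h D.hf (fun k => by
    obtain ⟨j, rfl | rfl⟩ := lo_or_rev k
    · rw [h1, sub_self]; exact zero_mem _
    refine ⟨fun l hl => ?_, by simp [sgn_rev, sgn_lo]⟩
    obtain ⟨i, rfl | rfl⟩ := lo_or_rev l
    · simp [sgn_rev, sgn_lo] at hl
    · rw [Fin.rev_rev, B_mov_eq_zero (h1 i)]) h2

theorem Rad_le : Rad B Q f ≤ Uni B Q f := D.radF_le_Uni sgn_rev sgn_mono

theorem exists_lev_mul {u : Isom B Q} (hu : u ∈ Uni B Q f) : ∃ A : GL (Fin m) F, A.1.det = 1 ∧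
    (∀ i j, j ≤ i → A.1 i j = if i = j then 1 else 0) ∧ (D.lev A)⁻¹ * u ∈ Rad B Q f := by
  let A : Matrix (Fin m) (Fin m) F := of fun i j => B (f (lo i).rev) (u.1 (f (lo j)))
  have h1 : ∀ i j, j ≤ i → A i j = if i = j then 1 else 0 := fun i j h => by
    have := (hu.2 _ _ (frame_mem_fil D.h D.hf (j := lo j) le_rfl)).1 (lo i) (by
      simp only [lab, val_lo, Fin.le_def] at h ⊢; omega)
    rwa [map_sub, D.b21, sub_eq_zero] at this
  have h2 : A.det = 1 := by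
    rw [det_of_isUpperTriangular fun i j (h : j < i) => by rw [h1 i j h.le, if_neg h.ne']]
    simp [h1]
  refine ⟨GeneralLinearGroup.mkOfDetNeZero A (h2 ▸ one_ne_zero), h2, h1, D.mem_Rad (fun j => ?_)
    fun v hv => ?_⟩
  · rw [Isom.mul_apply, D.eq_sum (mem_stabF.1 (D.Bor_le sgn_rev sgn_mono hu.1) _ _
      (frame_mem_fil D.h D.hf (sgn_lo j).le))]
    exact (congrArg _ (D.lev_lo _ j).symm).trans (Isom.inv_apply_apply _ _)
  · nth_rewrite 2 [← D.lev_V0 (GeneralLinearGroup.mkOfDetNeZero A (h2 ▸ one_ne_zero))⁻¹ hv]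
    rw [Isom.mul_apply, map_inv, ← map_sub]
    refine mem_stabF.1 (inv_mem (D.lev_mem_stab _)) _ _ (fil_le (fun k hk => ?_) (by simp)
      (hu.2 0 v (mem_fil_of_V0 le_rfl hv)))
    simp only [sgn, lab] at hk ⊢
    split_ifs at hk <;> omega

theorem exists_swap : ∃ n : Isom B Q, Acts f n Fin.revPerm ∧
    ∀ A, n⁻¹ * D.lev A * n = D.lev (invT _ _ A) := by
  obtain ⟨n, h1, h2, h3⟩ := D.exists_isom (a := fun i => f (lo i).rev) (b := fun i => ε • f (lo i))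
    (fun _ => D.hf.sing _) (fun _ => by rw [D.h.smul, D.hf.sing, mul_zero]) D.b22
    (fun i j => by simp [D.b11]) (fun i j => by simp [D.b12, D.eps i, eq_comm])
    fun u hu i => by simp [show ∀ k, B (f k) u = 0 from hu]
  refine ⟨n, fun k => ?_, fun A => D.eq_lev (fun j => ?_) (fun i j => ?_) fun u hu => ?_⟩
  · obtain ⟨j, rfl | rfl⟩ := lo_or_rev k
    · exact ⟨1, one_ne_zero, by simp [h1]⟩
    · exact ⟨ε, left_ne_zero_of_mul_eq_one (D.eps j), by simp [h2]⟩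
  · simp only [Isom.mul_apply, h1, D.lev_rev]
    simp only [← h1, ← map_smul, ← map_sum, Isom.inv_apply_apply]
    rfl
  · rw [Isom.mul_apply, Isom.mul_apply, B_inv_apply]
    simp [h2, D.lev_lo, D.b11]
  · rw [Isom.mul_apply, Isom.mul_apply, h3 u hu, D.lev_V0 A hu]
    exact (congrArg _ (h3 u hu).symm).trans (Isom.inv_apply_apply _ _)

theorem eq_one_of_swap {n : Isom B Q} (hn : Acts f n Fin.revPerm) {u : Isom B Q}
    (hu : u ∈ Uni B Q f) (hu' : n⁻¹ * u * n ∈ Uni B Q f) : u = 1 := by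
  have h1 : u ∈ radF B Q (fil B f (lab ∘ Fin.rev)) := by
    have := hn.inv.conj_mem_radF D.hf hu'
    rwa [show n⁻¹⁻¹ * (n⁻¹ * u * n) * n⁻¹ = u by group] at this
  have key : ∀ {s t v}, s + t ≤ 0 → v ∈ fil B f lab s → v ∈ fil B f (lab ∘ Fin.rev) t → u.1 v = v :=
    fun {s t v} h a b => by
      have a := hu.2 _ _ a
      have b := h1.2 _ _ b
      refine sub_eq_zero.1 (eq_zero_of_frame D.h D.hf (fun k => ?_) ?_)
      · obtain ⟨k, rfl⟩ := Fin.rev_surjective k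
        by_cases e : s - 1 < lab k
        · exact a.1 k e
        · exact b.1 k (by rw [Function.comp_apply, lab_rev]; omega)
      · by_cases e : s - 1 < 0
        exacts [a.2 e, b.2 (by omega)]
  exact ext_frame (fun k => key (by rw [Function.comp_apply, lab_rev]; omega)
    (frame_mem_fil D.h D.hf le_rfl) (frame_mem_fil D.h D.hf le_rfl))
    (fun v hv => key (by omega) (mem_fil_of_V0 le_rfl hv) (mem_fil_of_V0 le_rfl hv)) D.hf

theorem fpf_dgl {γ : Fin m → Fˣ} (h1 : (∀ u ∈ V0 B f, u = 0) ∨ ∀ i, γ i ≠ 1)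
    (h2 : ∀ i j, i ≠ j → γ i * γ j ≠ 1) (h3 : (∀ a, π a = 0 → a = 0) ∨ ∀ i, γ i * γ i ≠ 1) :
    Fpf (Rad B Q f) (D.lev (dgl γ)) := ⟨D.lev_mem_normalizer _, fun r hr e => by
  have e' : ∀ v, (D.lev (dgl γ)).1 (r.1 v) = r.1 ((D.lev (dgl γ)).1 v) := fun v =>
    congrArg (fun g : Isom B Q => g.1 v) (mul_inv_eq_iff_eq_mul.1 e)
  have key : ∀ {w i} (c : Fˣ), (D.lev (dgl γ)).1 w = (c : F)⁻¹ • w → γ i * c ≠ 1 →
      B (f (lo i).rev) w = 0 := fun {w i} c h h' => by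
    have := Isom.map_B (D.lev (dgl γ)) (f (lo i).rev) w
    rw [h, D.lev_dgl_rev] at this
    by_contra h0
    refine h' (inv_eq_one.1 (Units.ext (mul_right_cancel₀ h0 ?_)))
    simpa [mul_assoc] using this
  have a1 : ∀ j, r.1 (f (lo j)) = f (lo j) := fun j => by
    have := hr.2 _ _ (frame_mem_fil D.h D.hf (sgn_lo j).le)
    rwa [fil_eq_bot D.h D.hf (by decide) fun k => by simp only [sgn]; split_ifs <;> omega,
      Submodule.mem_bot, sub_eq_zero] at this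
  have a2 : ∀ u ∈ V0 B f, r.1 u = u := fun u hu => by
    rcases h1 with h | h
    · rw [h u hu, map_zero]
    rw [← sub_eq_zero, D.eq_sum (hr.2 0 u (mem_fil_of_V0 le_rfl hu))]
    exact Finset.sum_eq_zero fun i _ => by
      rw [key 1 (by simp [e', D.lev_V0 _ hu]) (by simpa using h i), zero_smul]
  refine ext_frame (fun k => ?_) a2 D.hf
  obtain ⟨j, rfl | rfl⟩ := lo_or_rev k
  · exact a1 j
  have a3 : r.1 (f (lo j).rev) - f (lo j).rev ∈ fil B f sgn (-1) := ⟨fun l hl => by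
    obtain ⟨i, rfl | rfl⟩ := lo_or_rev l
    · simp [sgn_lo] at hl
    · rw [Fin.rev_rev, B_mov_eq_zero (a1 i)], fun _ u hu => B_mov_eq_zero (a2 u hu) _⟩
  have a4 := fun i => key (i := i) (w := r.1 (f (lo j).rev) - f (lo j).rev) (γ j) (by
    rw [map_sub, e', D.lev_dgl_rev, map_smul, smul_sub])
  rw [Isom.one_apply, ← sub_eq_zero, D.eq_sum a3]
  refine Finset.sum_eq_zero fun i _ => smul_eq_zero_of_left ?_ _
  by_cases h : i = j
  swap
  · exact a4 i (h2 i j h)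
  subst h
  refine h3.elim (fun h => h _ ?_) fun h => a4 i (h i)
  have := D.h.add (f (lo i).rev) (r.1 (f (lo i).rev) - f (lo i).rev)
  rwa [add_sub_cancel, Isom.map_Q r, D.hf.sing, Q_eq_zero_of_fil D.h D.hf sgn_rev (by decide) a3,
    zero_add, zero_add, eq_comm] at this⟩

theorem fpf_lev [Fintype F] {γ : Fin m → Fˣ} (h : Fpf (Rad B Q f) (D.lev (dgl γ)))
    {X : GL (Fin m) F} (hX : X.1.charpoly = ∏ i, (Polynomial.X - Polynomial.C (γ i : F))) :
    Fpf (Rad B Q f) (D.lev X) := by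
  have := isConj_pow_diagonal hX
  rw [← Units.val_pow_eq_pow_val] at this
  obtain ⟨z, e⟩ := isConj_iff.1 ((isConj_GL_iff (A := dgl γ)).2 this)
  exact h.of_pow (D.lev_mem_normalizer X) (D.lev_mem_normalizer z)
    (by rw [← map_pow, ← e, map_mul, map_mul, map_inv])

theorem conj_lev_dgl {s : Isom B Q} {w : Equiv.Perm (Fin (2 * m))} (hs : Acts f s w)
    {γ γ' : Fin m → Fˣ} (h1 : ∀ i j, w (lo j) = lo i → γ' j = γ i)
    (h2 : ∀ i j, w (lo j) = (lo i).rev → γ' j = (γ i)⁻¹) :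
    s⁻¹ * D.lev (dgl γ) * s = D.lev (dgl γ') := by
  refine D.eq_lev_dgl (by simpa using (hs.inv.mul (D.acts_lev_dgl γ)).mul hs) (fun u hu => by
    rw [Isom.mul_apply, Isom.mul_apply, D.lev_V0 _ (hs.map_V0 D.hf hu), Isom.inv_apply_apply])
    fun j => ?_
  obtain ⟨c, -, e⟩ := hs (lo j)
  have : (D.lev (dgl γ)).1 (f (w (lo j))) = (γ' j : F) • f (w (lo j)) := by
    obtain ⟨i, h | h⟩ := lo_or_rev (w (lo j))
    · rw [h1 i j h, h, D.lev_dgl_lo]
    · rw [h2 i j h, h, D.lev_dgl_rev, Units.val_inv_eq_inv_val]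
  rw [Isom.mul_apply, Isom.mul_apply, e, map_smul, this, smul_comm, ← e, map_smul,
    Isom.inv_apply_apply]

theorem conj_single {s : Isom B Q} {w : Equiv.Perm (Fin (2 * m))} (hs : Acts f s w) {i j : Fin m}
    (t : Fˣ) : (w (lo j) = lo i → s⁻¹ * D.lev (dgl (Pi.mulSingle i t)) * s =
      D.lev (dgl (Pi.mulSingle j t))) ∧ (w (lo j) = (lo i).rev →
      s⁻¹ * D.lev (dgl (Pi.mulSingle i t)) * s = D.lev (dgl (Pi.mulSingle j t⁻¹))) := by
  have a1 : ∀ {a b}, w (lo a) ≠ (w (lo b)).rev := fun e =>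
    lo_ne_rev _ _ (w.injective (e.trans (hs.rev D.hf _).symm))
  have a2 : ∀ {a b}, w (lo a) = w (lo b) → a = b := fun e => lo_inj.1 (w.injective e)
  refine ⟨fun h => D.conj_lev_dgl hs (fun a b e => ?_) fun a b e => ?_,
    fun h => D.conj_lev_dgl hs (fun a b e => ?_) fun a b e => ?_⟩
  · by_cases e' : b = j
    · rw [e', h, lo_inj] at e
      simp [e, e']
    · simp [e', show a ≠ i by rintro rfl; exact e' (a2 (e.trans h.symm))]
  · simp [show a ≠ i by rintro rfl; exact a1 (h ▸ e),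
      show b ≠ j by rintro rfl; exact lo_ne_rev _ _ (h.symm.trans e)]
  · simp [show a ≠ i by rintro rfl; exact a1 (e ▸ h),
      show b ≠ j by rintro rfl; exact lo_ne_rev _ _ (e.symm.trans h)]
  · by_cases e' : b = j
    · rw [e', h, Fin.rev_inj, lo_inj] at e
      simp [e, e']
    · simp [e', show a ≠ i by rintro rfl; exact e' (a2 (e.trans h.symm))]

theorem comm_single {s : Isom B Q} {w : Equiv.Perm (Fin (2 * m))} (hs : Acts f s w) {i j : Fin m}
    (t : Fˣ) : (w (lo j) = lo i → D.lev (dgl (Pi.mulSingle i t * Pi.mulSingle j t⁻¹)) =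
      D.lev (dgl (Pi.mulSingle i t)) * (s⁻¹ * (D.lev (dgl (Pi.mulSingle i t)))⁻¹ * s)) ∧
      (w (lo j) = (lo i).rev → D.lev (dgl (Pi.mulSingle i t * Pi.mulSingle j t)) =
      D.lev (dgl (Pi.mulSingle i t)) * (s⁻¹ * (D.lev (dgl (Pi.mulSingle i t)))⁻¹ * s)) := by
  rw [← map_inv, ← map_inv, ← Pi.mulSingle_inv]
  exact ⟨fun h => by rw [(D.conj_single hs _).1 h, map_mul, map_mul],
    fun h => by rw [(D.conj_single hs _).2 h, map_mul, map_mul, inv_inv]⟩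

theorem eq_of_BNB {g n b b' : Isom B Q} {w w' : Equiv.Perm (Fin (2 * m))} (hg : Acts f g w)
    (hn : Acts f n w') (hb : b ∈ Bor B Q f) (hb' : b' ∈ Bor B Q f) (e : g = b * n * b') :
    n⁻¹ * g ∈ Bor B Q f ⊓ mon B Q f := by
  have : w' * w⁻¹ = 1 := GLn.eq_one_of_forall_le fun k => not_lt.1 fun h => by
    obtain ⟨j, rfl⟩ := w.surjective k
    obtain ⟨c, -, e'⟩ := hg j
    have h1 := D.coord_eq_zero (inv_mem hb) (lab_lt.2 h)
    have h2 : B (f j.rev) (b'.1 (f j)) = 0 := by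
      rw [← hn.coord D.hf, ← Isom.mul_apply, show n * b' = b⁻¹ * g by rw [e]; group, Isom.mul_apply,
        e', map_smul, map_smul]
      exact smul_eq_zero_of_right _ (by simpa using h1)
    have h3 := D.sub_mem_fil hb' j
    rw [h2, mul_zero, zero_smul, sub_zero] at h3
    have := mem_stabF.1 (inv_mem hb') _ _ h3
    rw [Isom.inv_apply_apply] at this
    exact D.hf.ne j (this.1 j (by omega))
  obtain rfl := mul_inv_eq_one.1 this
  rw [D.mem_H_iff, ← inv_mul_cancel w']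
  exact hn.inv.mul hg

theorem H_comm {u₀ : V} (h0 : u₀ ∈ V0 B f) (h1 : ∀ u ∈ V0 B f, ∃ c : F, u = c • u₀) :
    ∀ a ∈ Bor B Q f ⊓ mon B Q f, ∀ b ∈ Bor B Q f ⊓ mon B Q f, a * b = b * a := fun a ha b hb => by
  rw [D.mem_H_iff] at ha hb
  refine ext_frame (fun k => ?_) (fun u hu => ?_) D.hf
  · obtain ⟨c, -, e⟩ := ha k
    obtain ⟨d, -, e'⟩ := hb k
    simp only [Isom.mul_apply, Equiv.Perm.one_apply] at e e' ⊢
    rw [e, e', map_smul, map_smul, e, e', smul_comm]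
  · obtain ⟨c, rfl⟩ := h1 u hu
    obtain ⟨c, e⟩ := h1 _ (ha.map_V0 D.hf h0)
    obtain ⟨d, e'⟩ := h1 _ (hb.map_V0 D.hf h0)
    simp only [Isom.mul_apply, map_smul, e, e']
    rw [smul_comm c]

theorem isConj_lev_inv (X : GL (Fin m) F) : IsConj (D.lev X) (D.lev X⁻¹) := by
  obtain ⟨n, -, hn⟩ := D.exists_swap
  exact (isConj_iff.2 ⟨n⁻¹, by rw [inv_inv, hn]⟩).trans (D.lev.map_isConj
    ((isConj_GL_iff (B := invT _ _ X)).2 (isConj_transpose _))).symm

end NF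

theorem mem_fixV_of_le {A : GL (Fin (m + 1)) F} (h : ∀ i j, j ≤ i → A.1 i j = if i = j then 1 else 0) :
    A ∈ fixV (Pi.single (Fin.last m) (1 : F)) (Pi.single 0 1) := by
  constructor <;> ext k
  · simp [h _ _ (Fin.le_last k), Pi.single_apply, eq_comm]
  · simp [h _ _ (Fin.zero_le k), Pi.single_apply]

theorem invT_mem_fixV {A : GL (Fin m) F} {a b : Fin m → F} (h : A ∈ fixV a b) :
    invT _ _ A ∈ fixV b a :=
  ⟨(vecMul_transpose _ _).trans (inv_mem h).2, (mulVec_transpose _ _).trans (inv_mem h).1⟩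

theorem mem_of_single {L : Subgroup (Fin (m + 1) → Fˣ)}
    (h : ∀ (i : Fin m) t, Pi.mulSingle i.succ t * Pi.mulSingle i.castSucc t⁻¹ ∈ L)
    {γ : Fin (m + 1) → Fˣ} (hγ : Pi.mulSingle (Fin.last m) (∏ i, γ i) ∈ L) : γ ∈ L := by
  have key : ∀ i t, Pi.mulSingle i t * Pi.mulSingle (Fin.last m) t⁻¹ ∈ L := fun i t => by
    induction i using Fin.reverseInduction with
    | last => rw [← Pi.mulSingle_mul, mul_inv_cancel, Pi.mulSingle_one]; exact one_mem _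
    | cast i ih =>
      convert mul_mem (inv_mem (h i t)) ih using 1
      simp only [Pi.mulSingle_inv]
      group
  convert mul_mem (prod_mem fun i (_ : i ∈ Finset.univ) => key i (γ i)) hγ using 1
  rw [Finset.prod_mul_distrib, Finset.univ_prod_mulSingle, mul_assoc, left_eq_mul]
  ext k : 1
  by_cases e : k = Fin.last m <;> simp [e]

theorem NF.two_of_gauss [Finite F] {f : Fin (2 * (m + 1)) → V} (D : NF B Q ε π f)
    {X : GL (Fin (m + 1)) F} (hX : ∀ g : GL (Fin (m + 1)) F, g.1.det = 1 →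
      (¬ ∃ c : F, g.1 = c • (1 : Matrix _ _ F)) → ∃ a b, g = a * X * a⁻¹ * (b * X⁻¹ * b⁻¹))
    (hf : Fpf (Rad B Q f) (D.lev X)) {n v u : Isom B Q}
    (hn : ∀ A, n⁻¹ * D.lev A * n = D.lev (invT _ _ A)) (hv : n⁻¹ * v * n ∈ Uni B Q f)
    (hu : u ∈ Uni B Q f) {γ : Fin (m + 1) → Fˣ} (h1 : ∏ i, γ i = 1) (h2 : γ 0 ≠ γ (Fin.last m)) :
    Two (D.lev X) (v * D.lev (dgl γ) * u) := by
  obtain ⟨A, a1, a2, a3⟩ := D.exists_lev_mul hu
  obtain ⟨A', b1, b2, b3⟩ := D.exists_lev_mul (inv_mem hv)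
  obtain ⟨a, b, e⟩ := hX (invT _ _ A'⁻¹ * dgl γ * A) (by
      simp [invT_val, a1, b1, coe_dgl, ← Units.coe_prod, h1])
    (not_scalar (invT_mem_fixV (inv_mem (mem_fixV_of_le b2))) (mem_fixV_of_le a2) (coe_dgl γ)
      (Units.val_injective.ne h2))
  obtain ⟨z, hz⟩ := isConj_iff.1 ((isConj_GL_iff (B := invT _ _ X)).2 (isConj_transpose (X⁻¹).1))
  have hr := map_inv D.lev X ▸ D.isConj_lev_inv X
  have c1 := hr.trans (hf.inv.isConj_left (D.lev_mem_normalizer (invT _ _ a * z)) (inv_mem b3))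
  have c2 := hr.trans (hf.inv.isConj_right (D.lev_mem_normalizer b) a3)
  convert Two.of_isConj (c1.trans (isConj_iff.2 ⟨n, rfl⟩)) c2 using 1
  have e1 : D.lev (invT _ _ a * z) * (D.lev X)⁻¹ * (D.lev (invT _ _ a * z))⁻¹ =
      n⁻¹ * D.lev (a * X * a⁻¹) * n := by
    rw [hn, map_mul (invT _ _), map_mul (invT _ _), ← hz]
    simp [mul_assoc]
  have e2 := congrArg D.lev e
  have e3 := hn (invT _ _ A'⁻¹)
  rw [invT_invT, map_inv D.lev] at e3
  simp only [map_mul, map_inv D.lev] at e1 e2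
  rw [map_mul, e1]
  calc _ = v * n * D.lev A' * (n⁻¹ * D.lev (invT _ _ A'⁻¹) * n) * n⁻¹ * D.lev (dgl γ) * u := by
        rw [e3]; group
    _ = v * n * D.lev A' * n⁻¹ * (D.lev (invT _ _ A'⁻¹) * D.lev (dgl γ) * D.lev A) *
        ((D.lev A)⁻¹ * u) := by group
    _ = _ := by rw [e2]; group

section Gauss

variable [Finite F] {f : Fin (2 * (m + 1)) → V} (D : NF B Q ε π f)
  {n : Isom B Q} (hn : Acts f n Fin.revPerm) {M : Subgroup (Isom B Q)}
  (hU : Uni B Q f ≤ M) (hq : ∀ N : Subgroup (Isom B Q), M ≤ normalizer (N : Set (Isom B Q)) →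
    M ≤ N ∨ N ⊓ M ≤ center _)

variable (n) in
/-- Gauss decomposition with prescribed diagonal part. -/
def NF.HasGauss (S : Fˣ → Prop) (g : Isom B Q) : Prop := ∃ k, Acts f k 1 ∧ ∀ γ, S (∏ i, γ i) →
  ∃ y v, ∃ u ∈ Uni B Q f, n⁻¹ * v * n ∈ Uni B Q f ∧ y * g * y⁻¹ = v * (k * D.lev (dgl γ)) * u

theorem sw_castSucc (i : Fin m) : sw i.castSucc (lo i.castSucc) = lo i.succ := sw_lo _

theorem sw_last : sw (Fin.last m) (lo (Fin.last m)) = (lo (Fin.last m)).rev :=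
  (sw_lo _).trans (Fin.ext (by simp only [val_up, Fin.val_rev, val_lo, Fin.val_last]; omega))

include hn hU hq

theorem NF.hasGauss_B (ht : (∃ a, a ≠ 0 ∧ π a = 0) ∨ ∃ u ∈ V0 B f, u ≠ 0)
    (hV : ∀ u ∈ V0 B f, B u u = 0 → u = 0) {u₀ : V} (h0 : u₀ ∈ V0 B f)
    (h1 : ∀ u ∈ V0 B f, ∃ c : F, u = c • u₀) {S : Fˣ → Prop}
    (hS : (∀ t, S t → IsSquare t) ∨ (π = 0 ∧ u₀ = 0)) {g : Isom B Q} (hg : g ∈ M)
    (hg' : g ∉ centralizer (M : Set (Isom B Q))) : D.HasGauss n S g := by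
  obtain ⟨p, _⟩ := CharP.exists F
  have := Fact.mk (CharP.char_is_prime F p)
  let T := D.splitB ht p hV
  have hH : T.H = Bor B Q f ⊓ mon B Q f := D.titsB_H ht
  have hc := hH ▸ D.H_comm h0 h1
  have hd : ∀ γ, D.lev (dgl γ) ∈ T.H := fun γ => hH ▸ D.mem_H_iff.2 (D.acts_lev_dgl γ)
  have hs : ∀ i, D.s i ∈ T.N := (D.locB ht).s_mem_N0
  have hw : ∀ i, T.wt (D.s i) = T.s i := (D.locB ht).toTits_wt_s _
  have hN : n ∈ T.N := by
    obtain ⟨b, hb, n', hn', b', hb', -, e⟩ := T.exists_BNB n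
    obtain ⟨w, hw⟩ := (D.locB ht).N0_le hn'
    exact (mul_mem_cancel_left (inv_mem hn')).1 (T.H_le_N (hH ▸ D.eq_of_BNB hn hw hb hb' e))
  have ho := fun u => D.eq_one_of_swap hn (u := u)
  obtain ⟨K, a1, a2, a3⟩ : ∃ K ≤ T.H, (∃ k ∈ T.H, ∀ c ∈ K,
      Gauss T (opp T n) (D.s (Fin.last m)) (k * c)) ∧
      ∀ t, S t → D.lev (dgl (Pi.mulSingle (Fin.last m) t)) ∈ K := by
    rcases hS with hS | ⟨rfl, rfl⟩
    · refine ⟨_, commH_le T hc (hs _), gauss_commH hN ho hc (hs _) (hw _), fun t h => ?_⟩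
      obtain ⟨t, rfl⟩ := hS t h
      exact ⟨_, hd _, by
        rw [Pi.mulSingle_mul]; exact (D.comm_single (D.acts_s _) t).2 sw_last⟩
    have b0 : ∀ {g : Isom B Q}, (∀ j, g.1 (f (lo j)) = f (lo j)) → g ∈ Uni B Q f := fun h =>
      D.Rad_le (D.mem_Rad h fun u hu => by obtain ⟨c, rfl⟩ := h1 u hu; simp)
    have b1 : ∀ (k : Fin (2 * (m + 1))) (t : F), ∃ x : Isom B Q, x.1 (f k) = f k + t • f k.rev ∧
        ∀ j, j ≠ k → x.1 (f j) = f j := fun k t => exists_move D.h D.hf (rev_ne k)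
      (by simp [D.h.add, D.h.smul, D.hf.sing]) (fun l h h' => by
        simp [D.hf.orth' (i := l) (j := k) fun e => h' (by rw [e, Fin.rev_rev]),
          D.hf.orth' (Fin.rev_injective.ne h.symm)]) (by simp [D.hf.orth _ _ (rev_ne k).symm])
    choose c c1 c2 using fun j => D.acts_s (Fin.last m) (lo j)
    refine ⟨((D.lev.comp dgl).comp (MonoidHom.mulSingle _ (Fin.last m))).range, ?_,
      ⟨_, hd fun j => Units.mk0 _ (c1 j), ?_⟩, fun t _ => ⟨t, rfl⟩⟩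
    · rintro _ ⟨t, rfl⟩
      exact hd _
    rintro _ ⟨t, rfl⟩
    obtain ⟨a, d1, d2⟩ := b1 (lo (Fin.last m)).rev t
    obtain ⟨v, d3, d4⟩ := b1 (lo (Fin.last m)) (t : F)⁻¹
    refine ⟨a, b0 fun j => d2 _ (lo_ne_rev _ _), v, (mem_opp T).2 (b0 fun j => ?_),
      (D.lev (dgl ((fun j => Units.mk0 _ (c1 j)) * Pi.mulSingle (Fin.last m) t)))⁻¹ * v⁻¹ *
        (a * D.s (Fin.last m)), b0 fun j => ?_, by simp [mul_assoc]⟩
    · obtain ⟨d, -, e⟩ := hn (lo j)
      rw [Isom.mul_apply, Isom.mul_apply, e, map_smul, d4 (Fin.revPerm _) (lo_ne_rev _ _).symm, ← e,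
        Isom.inv_apply_apply]
    rw [← _root_.mul_inv_rev, Isom.mul_apply]
    refine Eq.trans (congrArg _ ?_) (Isom.inv_apply_apply _ _)
    rw [Isom.mul_apply, Isom.mul_apply, c2, D.lev_dgl_lo, map_smul, map_smul]
    by_cases e : j = Fin.last m
    · rw [e, sw_last, d1, d3, Fin.rev_rev]
      simp [smul_smul, add_comm]
    · rw [show sw (Fin.last m) (lo j) = lo j from Fin.ext (by
        have : j.val ≠ m := Fin.val_ne_of_ne e
        rw [val_sw_last (b := Fin.last m) rfl, val_lo]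
        split_ifs <;> omega), d2 _ (lo_ne_rev _ _), d4 _ (lo_inj.not.2 e)]
      simp [e]
  obtain ⟨K', e1, e2⟩ : ∃ K' : Fin (m + 1) → Subgroup _, K' (Fin.last m) = K ∧
      ∀ i : Fin m, K' i.castSucc = commH T hc (hs i.castSucc) :=
    ⟨Fin.lastCases K _, Fin.lastCases_last, Fin.lastCases_castSucc⟩
  obtain ⟨k, hk, h⟩ := exists_gauss_opp hN ho hU
    (fun N _ => (hq N le_normalizer_of_normal).imp_left hU.trans) hc K'
    (Fin.lastCases (e1 ▸ a1) fun i => e2 i ▸ commH_le T hc _)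
    (fun i => ⟨_, hs i, hw i, by
      cases i using Fin.lastCases
      exacts [e1 ▸ a2, e2 _ ▸ gauss_commH hN ho hc (hs _) (hw _)]⟩)
    hg fun h => hg' (center_le_centralizer _ h)
  refine ⟨k, D.mem_H_iff.1 (hH ▸ hk), fun γ hγ => ?_⟩
  obtain ⟨y, v, hv, u, hu, e⟩ := h (D.lev (dgl γ)) (mem_of_single
    (L := comap (D.lev.comp dgl) (⨆ i, K' i)) (fun i t => mem_iSup_of_mem i.castSucc
      (e2 i ▸ ⟨_, hd _, (D.comm_single (D.acts_s _) t).1 (sw_castSucc i)⟩))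
    (mem_iSup_of_mem (Fin.last m) (e1 ▸ a3 _ hγ)))
  exact ⟨y, v, u, hu, (mem_opp T).1 hv, e⟩

theorem NF.hasGauss_D (hπ : ∀ a, π a = 0 → a = 0) (h0 : ∀ u ∈ V0 B f, u = 0) (hm : 0 < m)
    (hM : M ≤ D.KD hπ h0 (b := Fin.last m) rfl) {g : Isom B Q} (hg : g ∈ M)
    (hg' : g ∉ centralizer (M : Set (Isom B Q))) : D.HasGauss n IsSquare g := by
  obtain ⟨p, _⟩ := CharP.exists F
  have := Fact.mk (CharP.char_is_prime F p)
  have hb : (Fin.last m).val + 1 = m + 1 := rfl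
  let T := D.splitD hπ h0 hb p
  have hH : T.H = _ := D.titsD_H hπ h0 hb
  have hc : ∀ a ∈ T.H, ∀ b ∈ T.H, a * b = b * a := hH ▸ fun a ha b hb =>
    Subtype.ext (D.H_comm (zero_mem _) (fun u hu => ⟨0, by simp [h0 u hu]⟩) _ ha _ hb)
  let φ := (D.lev.comp dgl).codRestrict (D.KD hπ h0 hb) fun γ =>
    D.Bor_le_KD hπ h0 hb (D.mem_H_iff.2 (D.acts_lev_dgl γ)).1
  have hd : ∀ γ, φ γ ∈ T.H := fun γ => hH ▸ D.mem_H_iff.2 (D.acts_lev_dgl γ)
  have hs : ∀ i, (⟨D.sD _ i, D.sD_mem_KD hπ h0 hb i⟩ : D.KD hπ h0 hb) ∈ T.N := BNLoc.s_mem_N0 _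
  have hw : ∀ i, T.wt ⟨D.sD _ i, D.sD_mem_KD hπ h0 hb i⟩ = T.s i := BNLoc.toTits_wt_s _ _
  obtain ⟨n', ⟨w, b1⟩, b2⟩ : ∃ n' : D.KD hπ h0 hb, n'.1 ∈ mon B Q f ∧
      ∀ v, n'.1⁻¹ * v * n' ∈ Uni B Q f ↔ n⁻¹ * v * n ∈ Uni B Q f := by
    rcases D.mem_KD_or hπ h0 hb n with h | h
    · exact ⟨⟨n, h⟩, ⟨_, hn⟩, fun _ => Iff.rfl⟩
    · exact ⟨⟨_, h⟩, ⟨_, hn.mul (D.acts_s _)⟩, fun v => by
        rw [D.mem_Uni_iff_conj hπ h0 hb (n⁻¹ * v * n)]; simp [mul_assoc]⟩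
  have hN : n' ∈ T.N := by
    obtain ⟨b, hb, n', hn', b', hb', -, e⟩ := T.exists_BNB n'
    obtain ⟨w, hw⟩ := BNLoc.N0_le _ hn'
    exact (mul_mem_cancel_left (inv_mem hn')).1 (T.H_le_N (hH ▸ D.eq_of_BNB b1 hw hb hb'
      (congrArg Subtype.val e)))
  have ho : ∀ u ∈ T.U, n'⁻¹ * u * n' ∈ T.U → u = 1 := fun u hu h =>
    Subtype.ext (D.eq_one_of_swap hn hu ((b2 _).1 h))
  have : Nonempty (IdD (m + 1)) := ⟨⟨0, by omega⟩⟩
  obtain ⟨k, hk, h⟩ := exists_gauss_opp hN ho (M := M.subgroupOf _) (fun _ h => hU h)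
    (fun N _ => (hq (N.map (Subgroup.subtype _)) (by
      rw [← range_subtype (D.KD hπ h0 hb), MonoidHom.range_eq_map, ← normalizer_eq_top N] at hM
      exact hM.trans (le_normalizer_map _))).imp
        (fun h u hu => (mem_map_iff_mem (subtype_injective _)).1 (h (hU hu))) fun h x hx =>
          mem_center_iff.2 fun y => Subtype.ext (mem_center_iff.1 (h ⟨mem_map_of_mem _ hx.1, hx.2⟩) _))
    hc (fun i => commH T hc (hs i)) (fun i => commH_le T hc _)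
    (fun i => ⟨_, hs i, hw i, gauss_commH hN ho hc (hs _) (hw _)⟩) (g := ⟨g, hM hg⟩) hg fun h =>
      hg' fun x hx => congrArg Subtype.val (mem_center_iff.1 h ⟨x, hM hx⟩)
  refine ⟨k, D.mem_H_iff.1 (hH ▸ hk :), fun γ ⟨t, hγ⟩ => ?_⟩
  have c1 : ∀ (i : Fin m) t, Pi.mulSingle i.succ t * Pi.mulSingle i.castSucc t⁻¹ ∈
      comap φ (⨆ i, commH T hc (hs i)) := fun i t =>
    mem_iSup_of_mem ⟨i.castSucc, by omega⟩ ⟨_, hd _, Subtype.ext ((D.comm_single (D.acts_sD _ _) t).1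
      (by rw [wD, if_pos (by simp), sw_castSucc]))⟩
  have c2 : Pi.mulSingle (pr (by omega)) t * Pi.mulSingle (Fin.last m) t ∈
      comap φ (⨆ i, commH T hc (hs i)) :=
    mem_iSup_of_mem ⟨Fin.last m, by omega⟩ ⟨_, hd _, Subtype.ext ((D.comm_single (D.acts_sD _ _) t).2
      (Fin.ext (by
        simp only [val_wD_last hb (i := ⟨Fin.last m, by omega⟩) (by simp), val_lo, Fin.val_last,
          Fin.val_rev, pr]
        split_ifs <;> omega)))⟩
  obtain ⟨y, v, hv, u, hu, e⟩ := h _ (mem_of_single c1 (γ := γ) (by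
    convert mul_mem (c1 ⟨m - 1, by omega⟩ t) c2 using 1
    rw [hγ, Pi.mulSingle_mul, Pi.mulSingle_inv,
      show Fin.succ ⟨m - 1, _⟩ = Fin.last m from Fin.ext (by simp; omega)]
    exact congrArg _ (inv_mul_cancel_left _ _).symm |>.trans (mul_assoc _ _ _).symm))
  exact ⟨y, v, u, hu, (b2 _).1 ((mem_opp T).1 hv), congrArg Subtype.val e⟩

end Gauss

theorem exists_NF (h : IsFormed (RingHom.id F) B Q ε π) {a b : Fin m → V} (ha : ∀ i, Q (a i) = 0)
    (hb : ∀ i, Q (b i) = 0) (haa : ∀ i j, B (a i) (a j) = 0) (hbb : ∀ i j, B (b i) (b j) = 0)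
    (hba : ∀ i j, B (b i) (a j) = if i = j then 1 else 0) {P : V → Prop}
    (hP : ∀ u, ((∀ i, B (a i) u = 0) ∧ ∀ i, B (b i) u = 0) ↔ P u) (hm : ∀ u, P u → Q u = 0 → u = 0) :
    ∃ f : Fin (2 * m) → V, NF B Q ε π f ∧ ∀ u, u ∈ V0 B f ↔ P u := by
  obtain ⟨f, h1, h2⟩ : ∃ f : Fin (2 * m) → V, (∀ i, f (lo i) = a i) ∧ ∀ i, f (lo i).rev = b i :=
    ⟨fun k => if h : k.val < m then a ⟨k, h⟩ else b ⟨k.rev, by rw [Fin.val_rev]; omega⟩,
      fun i => dif_pos i.2, fun i => (dif_neg (by rw [Fin.val_rev, val_lo]; omega)).trans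
        (congrArg b (Fin.ext (by simp)))⟩
  have h3 : ∀ u, u ∈ V0 B f ↔ P u := fun u => by
    rw [← hP]
    refine ⟨fun hu => ⟨fun i => h1 i ▸ hu _, fun i => h2 i ▸ hu _⟩, fun hu k => ?_⟩
    obtain ⟨i, rfl | rfl⟩ := lo_or_rev k
    exacts [h1 i ▸ hu.1 i, h2 i ▸ hu.2 i]
  refine ⟨f, ⟨⟨h, ⟨fun k => ?_, fun k l e => ?_, fun k => ?_⟩, fun u hu => hm u ((h3 u).1 hu)⟩,
    fun i => by rw [h1, h2, hba, if_pos rfl]⟩, h3⟩
  · obtain ⟨i, rfl | rfl⟩ := lo_or_rev k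
    exacts [h1 i ▸ ha i, h2 i ▸ hb i]
  · obtain ⟨i, rfl | rfl⟩ := lo_or_rev k <;> obtain ⟨j, rfl | rfl⟩ := lo_or_rev l
    · rw [h1, h2, hba, if_neg (lo_inj.not.1 e)]
    · rw [h2, h2, hbb]
    · rw [Fin.rev_rev, h1, h1, haa]
    · exact h.refl (by rw [Fin.rev_rev, h1, h2, hba, if_neg (by rintro rfl; exact e rfl)])
  · obtain ⟨i, rfl | rfl⟩ := lo_or_rev k
    · rw [h1, h2, hba, if_pos rfl]; exact one_ne_zero
    · exact fun e => by simpa [h1, h2, hba] using h.refl e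

open Polynomial in
theorem NF.exists_two [Fintype F] (hF : 9 ≤ Fintype.card F) (hm : 0 < m)
    {f : Fin (2 * (m + 1)) → V} (D : NF B Q ε π f) {M : Subgroup (Isom B Q)} [hM : M.Normal]
    (hU : Uni B Q f ≤ M) {S : Fˣ → Prop} (hG : ∀ n, Acts f n Fin.revPerm → ∀ g ∈ M,
      g ∉ centralizer (M : Set (Isom B Q)) → D.HasGauss n S g) (h1 : S 1)
    (hS : ∀ k ∈ M, Acts f k 1 → ∃ γ, k = D.lev (dgl γ) ∧ S (∏ i, γ i)⁻¹) {ν μ : Fˣ} (a0 : μ ≠ ν)
    (a1 : (∀ u ∈ V0 B f, u = 0) ∨ (ν ≠ 1 ∧ μ ≠ 1)) (a2 : ν * ν ≠ 1) (a3 : ν * μ ≠ 1)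
    (a4 : (∀ a, π a = 0 → a = 0) ∨ μ * μ ≠ 1)
    (hC : ∀ y : GL (Fin (m + 1)) F, y.1.charpoly = (X - C (ν : F)) ^ m * (X - C (μ : F)) →
      (∀ s : Fˣ, ∃ c, GeneralLinearGroup.det c = s ∧ c * y = y * c) →
      D.lev y ∈ M ∧ ∀ g, ∃ z, z * D.lev y = D.lev y * z ∧ g * z ∈ M) :
    ∃ c : M ⧸ center M, ∀ g, Two c g := by
  obtain ⟨y, b1, -, b2, b3⟩ := exists_GL_factor hm ((monic_X_sub_C (ν : F)).pow (n := m))
    (by rw [(monic_X_sub_C _).natDegree_pow, natDegree_X_sub_C, mul_one])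
    (by simp [coeff_zero_eq_eval_zero]) μ.ne_zero (by simp [sub_eq_zero, Units.val_inj, a0])
  obtain ⟨c1, c2⟩ := hC y b1 b2
  obtain ⟨n, hn, hn'⟩ := D.exists_swap
  obtain ⟨ζ, hζ⟩ := exists_unit hF
  have hf := D.fpf_lev (D.fpf_dgl (γ := Fin.lastCases μ fun _ => ν)
    (a1.imp_right fun h => Fin.lastCases (by simp [h]) (by simp [h])) (fun i j h => by
      cases i using Fin.lastCases <;> cases j using Fin.lastCases
      exacts [absurd rfl h, by simpa [mul_comm] using a3, by simpa using a3, by simpa using a2])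
    (a4.imp_right fun h => Fin.lastCases (by simp [h]) (by simp [a2])))
    (b1.trans (by simp [Fin.prod_univ_castSucc]))
  have hC' : ∀ g, ∃ z, z * M.subtype ⟨_, c1⟩ = M.subtype ⟨_, c1⟩ * z ∧ g * z ∈ M.subtype.range := by
    rwa [range_subtype]
  refine exists_two_quot _ (c := ⟨_, c1⟩) (isConj_comap M.subtype_injective hC'
    (map_inv D.lev y ▸ D.isConj_lev_inv y :)) fun g hg => Two.comap M.subtype_injective hC' ?_
  obtain ⟨k, d1, d2⟩ := hG n hn g g.2 fun h => hg (mem_center_iff.2 fun x => Subtype.ext (h x x.2))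
  obtain ⟨γ, rfl, d3⟩ := hS k (by
    obtain ⟨x, v, u, hu, hv, e⟩ := d2 1 (by simpa using h1)
    have := hM.conj_mem _ g.2 x
    rwa [e, mul_mem_cancel_right (hU hu), mul_mem_cancel_left (by
      simpa [mul_assoc] using hM.conj_mem _ (hU hv) n), map_one, map_one, mul_one] at this) d1
  have h0 : (0 : Fin (m + 1)) ≠ Fin.last m := Fin.ne_of_val_ne hm.ne
  have d4 : ∏ i, (Pi.mulSingle 0 ζ * Pi.mulSingle (Fin.last m) ζ⁻¹ : Fin (m + 1) → Fˣ) i = 1 := by
    simp [Finset.prod_mul_distrib]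
  obtain ⟨x, v, u, hu, hv, e⟩ := d2 (γ⁻¹ * (Pi.mulSingle 0 ζ * Pi.mulSingle (Fin.last m) ζ⁻¹))
    (by simpa [Finset.prod_mul_distrib] using d3)
  rw [← map_mul, ← map_mul, mul_inv_cancel_left] at e
  have := D.two_of_gauss b3 hf hn' hv hu d4 (by
    simpa [h0, h0.symm, eq_inv_iff_mul_eq_one, ← zpow_two] using hζ 2 (by decide) (by decide))
  rw [← e] at this
  exact this.of_conj

theorem exists_two_PSp [Fintype F] (hF : 9 ≤ Fintype.card F) (hm : 2 ≤ m) :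
    ∃ c : PSp m F, ∀ g, Two c g := by
  obtain ⟨m, rfl⟩ := Nat.exists_eq_add_one_of_ne_zero (by omega : m ≠ 0)
  obtain ⟨f, D, h0⟩ := exists_NF (isSympSpace_sympB (m + 1) F) (a := fun i => Pi.single (.inl i) 1)
    (b := fun i => Pi.single (.inr i) 1) (fun _ => rfl) (fun _ => rfl)
    (by simp [Sp.form_single_inl_left]) (by simp [Sp.form_single_inr_left])
    (by simp [Sp.form_single_inr_left, Pi.single_apply]) (P := (· = 0)) (fun u => by
      simp [Sp.form_single_inr_left, Sp.form_single_inl_left, funext_iff, and_comm]) fun _ h _ => h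
  obtain ⟨ζ, hζ⟩ := exists_unit hF
  obtain ⟨c, h⟩ := D.exists_two hF (by omega) (M := ⊤) le_top (S := fun _ => True)
    (fun n hn g => D.hasGauss_B hn le_top (fun N hN => by
      have : N.Normal := normalizer_eq_top_iff.1 (top_le_iff.1 hN)
      refine (Sp.le_center_or_commutator_le (N.comap (spEquiv _ F).toMonoidHom)).symm.imp
        (fun h x _ => ?_) fun h x hx => ?_ <;> obtain ⟨x, rfl⟩ := (spEquiv _ F).surjective x
      · exact h ((Sp.commutator_eq_top (F := F) (.inr (.inr (by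
          rw [Nat.card_eq_fintype_card]; omega)))).ge (mem_top x))
      · exact Orth.map_center_equiv (spEquiv _ F) ▸ mem_map_of_mem _ (h hx.1))
      (.inl ⟨1, one_ne_zero, rfl⟩) (fun u hu _ => (h0 u).1 hu) (zero_mem _)
      (fun u hu => ⟨0, by simp [(h0 u).1 hu]⟩) (.inr ⟨rfl, rfl⟩)) trivial
    (fun k _ hk => (D.exists_dgl hk fun u hu => by simp [(h0 u).1 hu]).imp fun _ e => ⟨e, trivial⟩)
    (ν := ζ ^ (1 : ℤ)) (μ := ζ ^ (2 : ℤ))
    (fun e => hζ (2 - 1) (by decide) (by decide) (by rw [zpow_sub, e, mul_inv_cancel]))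
    (.inl fun u => (h0 u).1) (zpow_add ζ _ _ ▸ hζ _ (by decide) (by decide))
    (zpow_add ζ _ _ ▸ hζ _ (by decide) (by decide))
    (.inr (zpow_add ζ _ _ ▸ hζ _ (by decide) (by decide)))
    fun y _ _ => ⟨trivial, fun g => ⟨1, by simp, trivial⟩⟩
  exact exists_two_congr (Orth.quotCenterCongr ((spEquiv _ F).trans topEquiv.symm)) ⟨c, h⟩

open Polynomial in
theorem exists_mem_fixV {y : GL (Fin m) F} {ν : F} {k : ℕ}
    (h : y.1.charpoly = (X - C ν) ^ k * (X - C 1)) (hν : ν ≠ 1) :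
    ∃ a b, y ∈ fixV b a ∧ b ⬝ᵥ a ≠ 0 := by
  have h4 : (scalar (Fin m) (1 : F) - y.1).det = 0 := by rw [← eval_charpoly, h]; simp
  obtain ⟨a, h0, h1⟩ := exists_mulVec_eq_zero_iff.2 h4
  rw [sub_mulVec, map_one, one_mulVec, sub_eq_zero] at h1
  have h2 : ∀ j, (y.1 - ν • 1) ^ j *ᵥ a = (1 - ν) ^ j • a := fun j => by
    induction j with
    | zero => simp
    | succ j ih =>
      rw [pow_succ, ← mulVec_mulVec, sub_mulVec, ← h1, smul_mulVec, one_mulVec, mulVec_sub,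
        mulVec_smul, ih, pow_succ]
      module
  have h3 := aeval_self_charpoly y.1
  simp only [h, map_mul, map_pow, map_sub, aeval_X, aeval_C, map_one, mul_sub, mul_one, sub_eq_zero,
    Algebra.algebraMap_eq_smul_one] at h3
  obtain ⟨i, hi⟩ := Function.ne_iff.1 h0
  refine ⟨a, Pi.single i 1 ᵥ* (y.1 - ν • 1) ^ k, ⟨by rw [vecMul_vecMul, h3], h1.symm⟩, ?_⟩
  rw [← dotProduct_mulVec, h2]
  simpa [sub_eq_zero, hν.symm] using hi

theorem NF.exists_fix (D : NF B Q ε π f) {y : GL (Fin m) F} {a b : Fin m → F} (h : y ∈ fixV b a) :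
    ∃ v, Q v = π (b ⬝ᵥ a) ∧ (D.lev y).1 v = v := by
  refine ⟨∑ i, b i • f (lo i).rev + ∑ i, a i • f (lo i), ?_, ?_⟩
  · rw [D.h.add, Q_eq_zero_of_fil D.h D.hf sgn_rev (by decide) (D.sum_mem_fil _),
      Q_eq_zero_of_fil D.h D.hf (a := -sgn) (fun k => congrArg Neg.neg (sgn_rev k))
      (t := -1) (by decide) (sum_mem fun i _ => Submodule.smul_mem _ _ (frame_mem_fil D.h D.hf
        (by simp [sgn_rev, sgn_lo])))]
    simp [LinearMap.sum_apply, D.b21, dotProduct, mul_comm]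
  · simp only [map_add, map_sum, map_smul, D.lev_lo, D.lev_rev, Finset.smul_sum, smul_smul]
    conv_rhs => rw [← (inv_mem h).1, ← h.2]
    simp only [vecMul, mulVec, dotProduct, Finset.sum_smul, mul_comm (a _)]
    exact congrArg₂ _ Finset.sum_comm Finset.sum_comm

section Orth

open Orth QuadraticMap Module

variable [Fintype F] {Q : QuadraticForm F V} (hQ : ND Q) (h : ReflGen Q)

theorem NF.dickson_spinor (D : NF (polarBilin Q) Q 1 (AddMonoidHom.id F) f) (hm : 3 ≤ m)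
    (A : GL (Fin m) F) : dickson hQ h ((ogEquiv Q).symm (D.lev A)) = 1 ∧
      spinor hQ h ((ogEquiv Q).symm (D.lev A)) = sqClass A.1.det := by
  obtain ⟨S, e⟩ := exists_SL_mul ⟨0, by omega⟩ A
  generalize (⟨0, _⟩ : Fin m) = i at e
  have h1 := (Orth.mem_commutator_iff hQ h _).1 (commutator_mono le_top le_top (map_commutator _ _
    (((ogEquiv Q).symm.toMonoidHom.comp D.lev).comp SpecialLinearGroup.toGL) ▸
      mem_map_of_mem _ ((SL_commutator_eq_top (by simpa)).ge (mem_top S))))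
  have h2 : IsHyp Q (f (lo i)) (f (lo i).rev) :=
    ⟨D.hf.sing _, D.hf.sing _, (D.b12 i i).trans (if_pos rfl)⟩
  have h3 : ∀ c : Fˣ, (ogEquiv Q).symm (D.lev (dgl (Pi.mulSingle i c))) = hypScale Q _ _ c := fun c => by
    have h4 := h2.hypScale_apply c.ne_zero
    simp only [polar_comm Q _ (f _), ← polarBilin_apply_apply] at h4
    rw [MulEquiv.symm_apply_eq, eq_comm]
    refine D.eq_lev (fun j => ?_) (fun j l => ?_) fun u hu => ?_
    · rw [← D.lev_lo, D.lev_dgl_lo, coe_ogEquiv, h4, D.b21, D.b11]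
      by_cases e : i = j <;> simp [e, sub_smul, Ne.symm]
    · simp [coe_ogEquiv, h4, D.b22, -polarBilin_apply_apply]
    · simp [coe_ogEquiv, h4, show ∀ k, polarBilin Q (f k) u = 0 from hu, -polarBilin_apply_apply]
  rw [e]
  simp only [map_mul, h3, h2.dickson_hypScale hQ h (Units.ne_zero _),
    h2.spinor_hypScale hQ h (Units.ne_zero _)]
  exact ⟨(mul_one _).trans h1.1, by rw [← e]; exact (congrArg (· * _) h1.2).trans (one_mul _)⟩

include hQ in
theorem normal_commutator (h5 : 5 ≤ finrank F V) (N : Subgroup (Isom (polarBilin Q) Q))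
    (hN : commutator _ ≤ normalizer (N : Set (Isom (polarBilin Q) Q))) :
    commutator _ ≤ N ∨ N ⊓ commutator _ ≤ center _ := by
  have : ((N.comap (ogEquiv Q).toMonoidHom).subgroupOf (commutator (OG Q))).Normal := ⟨fun x hx g =>
    (mem_normalizer_iff.1 (hN ((mem_commutator_equiv (ogEquiv Q) g).2 g.2)) (ogEquiv Q x)).1 hx⟩
  refine (hQ.normal_Omega h5 ((N.comap (ogEquiv Q).toMonoidHom).subgroupOf _)).imp
    (fun e x hx => ?_) fun e x hx => ?_ <;> obtain ⟨x, rfl⟩ := (ogEquiv Q).surjective x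
  · exact e.ge (mem_top ⟨x, (mem_commutator_equiv _ _).1 hx⟩)
  · refine map_center_equiv (ogEquiv Q) ▸ mem_map_of_mem _ ?_
    rcases e ⟨x, (mem_commutator_equiv _ _).1 hx.2⟩ hx.1 with e | e <;> rw [show x = _ from e]
    exacts [one_mem _, negOne_mem_center]

include hQ in
theorem NF.exists_two_O (hF : 9 ≤ Fintype.card F) {f : Fin (2 * (m + 1)) → V}
    (D : NF (polarBilin Q) Q 1 (AddMonoidHom.id F) f) (hm : 2 ≤ m)
    (h0 : (∀ u ∈ V0 (polarBilin Q) f, u = 0) ∨ (2 : F) ≠ 0 ∧ ∃ u₀ ∈ V0 (polarBilin Q) f, u₀ ≠ 0 ∧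
      ∀ u ∈ V0 (polarBilin Q) f, ∃ c : F, u = c • u₀) :
    ∃ c : commutator (OG Q) ⧸ center (commutator (OG Q)), ∀ g, Two c g := by
  have h5 : 5 ≤ finrank F V := by
    have := D.hf.linearIndependent.fintype_card_le_finrank
    rw [Fintype.card_fin] at this
    omega
  have h : ReflGen Q := hQ.reflGen_card (.inl (by omega))
  have hM : ∀ g, g ∈ commutator (Isom (polarBilin Q) Q) ↔ dickson hQ h ((ogEquiv Q).symm g) = 1 ∧
      spinor hQ h ((ogEquiv Q).symm g) = 1 := fun g => by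
    rw [← Orth.mem_commutator_iff, mem_commutator_equiv]
  have hl := D.dickson_spinor hQ h (by omega)
  have hl' : ∀ A, D.lev A ∈ commutator _ ↔ IsSquare A.1.det := fun A => by
    rw [hM, (hl A).1, (hl A).2, sqClass_eq_one_iff A.det_ne_zero, eq_self, true_and]
  have hU : Uni _ Q f ≤ commutator _ := Uni_le_of_eichler D.toMF fun u v =>
    (mem_commutator_equiv _ _).2 (hQ.commutator_eq_EG_of_five_le h5 ▸ eichler_mem_EG u v)
  have hq := normal_commutator hQ h5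
  have hC : ∀ {y : GL (Fin (m + 1)) F} {v}, Q v ≠ 0 → (D.lev y).1 v = v →
      (∀ s : Fˣ, ∃ c, GeneralLinearGroup.det c = s ∧ c * y = y * c) →
      ∀ g, ∃ z, z * D.lev y = D.lev y * z ∧ g * z ∈ commutator _ := fun {y v} a1 a2 a3 g => by
    obtain ⟨z, b1, b2⟩ : ∃ z, z * D.lev y = D.lev y * z ∧
        dickson hQ h ((ogEquiv Q).symm (g * z)) = 1 := by
      rcases Int.units_eq_one_or (dickson hQ h ((ogEquiv Q).symm g)) with e | e
      · exact ⟨1, by simp, by simpa using e⟩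
      · exact ⟨ogEquiv Q (Orth.refl Q v), by
          simpa using congrArg (ogEquiv Q) (refl_comm_of_fix (t := (ogEquiv Q).symm (D.lev y)) a2),
          by simp [e, dickson_refl hQ h a1]⟩
    obtain ⟨s, hs⟩ := sqClassHom_surjective (spinor hQ h ((ogEquiv Q).symm (g * z)))
    obtain ⟨c, c1, c2⟩ := a3 s
    refine ⟨z * D.lev c, by rw [mul_assoc, ← map_mul, c2, map_mul, ← mul_assoc, b1, mul_assoc], ?_⟩
    rw [← mul_assoc, hM, map_mul, map_mul, map_mul (spinor hQ h), b2, (hl c).1, (hl c).2, ← hs, ← c1,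
      ← sqClass_coe]
    exact ⟨mul_one _, sqClass_mul_self _⟩
  have hS : ∀ k ∈ commutator (Isom (polarBilin Q) Q), Acts f k 1 →
      (∀ u ∈ V0 (polarBilin Q) f, k.1 u = u) → ∃ γ, k = D.lev (dgl γ) ∧ IsSquare (∏ i, γ i)⁻¹ :=
    fun k hk a1 a2 => by
      obtain ⟨γ, rfl⟩ := D.exists_dgl a1 a2
      refine ⟨_, rfl, IsSquare.inv ?_⟩
      obtain ⟨r, hr⟩ := (hl' _).1 hk
      exact ⟨Units.mk0 r (left_ne_zero_of_mul (hr ▸ (dgl γ).det_ne_zero)), det_dgl γ ▸ Units.ext hr⟩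
  obtain ⟨ζ, hζ⟩ := exists_unit hF
  have hdet : ∀ (y : GL (Fin (m + 1)) F) (μ : Fˣ), y.1.charpoly = (Polynomial.X - Polynomial.C
      ((ζ ^ (2 : ℤ) : Fˣ) : F)) ^ m * (Polynomial.X - Polynomial.C ((μ * μ : Fˣ) : F)) →
      D.lev y ∈ commutator _ := fun y μ e => (hl' y).2 ⟨ζ ^ m * μ, by
    rw [det_eq_sign_charpoly_coeff, e, Polynomial.coeff_zero_eq_eval_zero]
    simp [neg_pow (_ * _), pow_succ, mul_pow, ← mul_assoc, ← mul_pow (-1 : F), mul_right_comm]⟩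
  refine exists_two_congr (pOmegaCongr (ogEquiv Q)) ?_
  rcases h0 with h0 | ⟨h2, u₀, a1, a2, a3⟩
  · refine D.exists_two hF (by omega) hU (fun n hn g => D.hasGauss_D hn hU hq (fun _ h => h) h0
      (by omega) (commutator_le_of_index_two (D.index_KD _ _ _))) IsSquare.one
      (fun k hk a => hS k hk a fun u hu => by rw [h0 u hu, map_zero]) (ν := ζ ^ (2 : ℤ)) (μ := 1 * 1)
      (by simpa using (hζ 2 (by decide) (by decide)).symm) (.inl h0)
      (zpow_add ζ _ _ ▸ hζ _ (by decide) (by decide))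
      (by simpa using hζ 2 (by decide) (by decide)) (.inl fun _ h => h)
      fun y e a => ⟨hdet y 1 e, ?_⟩
    rw [mul_one, Units.val_one] at e
    obtain ⟨a, b, c1, c2⟩ := exists_mem_fixV e (Units.val_eq_one.not.2 (hζ 2 (by decide) (by decide)))
    obtain ⟨v, d1, d2⟩ := D.exists_fix c1
    exact hC (d1 ▸ c2) d2 ‹_›
  have a4 : Q u₀ ≠ 0 := fun e => a2 (D.hm _ a1 e)
  refine D.exists_two hF (by omega) hU (fun n hn g => D.hasGauss_B hn hU hq (.inr ⟨u₀, a1, a2⟩)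
    (fun u hu e => D.hm u hu ((mul_eq_zero.1 ((polar_self' Q u).symm.trans e)).resolve_left h2))
    a1 a3 (.inl fun _ h => h)) IsSquare.one (fun k hk a => hS k hk a ?_)
    (ν := ζ ^ (2 : ℤ)) (μ := ζ ^ (2 : ℤ) * ζ ^ (2 : ℤ))
    (by simpa using hζ 2 (by decide) (by decide))
    (.inr ⟨hζ 2 (by decide) (by decide), zpow_add ζ _ _ ▸ hζ _ (by decide) (by decide)⟩)
    (zpow_add ζ _ _ ▸ hζ _ (by decide) (by decide))
    (zpow_add ζ _ _ ▸ zpow_add ζ _ _ ▸ hζ _ (by decide) (by decide)) (.inl fun _ h => h)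
    fun y e a => ⟨hdet y _ e, hC a4 (D.lev_V0 y a1) a⟩
  obtain ⟨c, e⟩ := a3 _ (a.map_V0 D.hf a1)
  have b1 := Isom.map_Q k u₀
  rw [e, Q_smul, mul_left_eq_self₀, or_iff_left a4, sq_eq_one_iff] at b1
  have b2 : ∀ {g : Isom (polarBilin Q) Q}, g.1 u₀ = u₀ → ∀ u ∈ V0 (polarBilin Q) f, g.1 u = u :=
    fun e u hu => by obtain ⟨d, rfl⟩ := a3 u hu; rw [map_smul, e]
  rcases b1 with rfl | rfl
  · exact b2 (e.trans (one_smul _ _))
  obtain ⟨γ, b3⟩ := D.exists_dgl (g := k * ogEquiv Q (Orth.refl Q u₀)) (a.mul (w' := 1)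
    fun k => ⟨1, one_ne_zero, (refl_apply_of_polar_eq_zero (a1 k)).trans (one_smul _ _).symm⟩)
    (b2 (by rw [Isom.mul_apply, coe_ogEquiv, refl_apply_self a4, map_neg, e]; simp))
  have := (hl (dgl γ)).1
  simp [← b3, ((hM k).1 hk).1, dickson_refl hQ h a4] at this

end Orth

theorem exists_two_plus [Fintype F] (hF : 9 ≤ Fintype.card F) (hm : 3 ≤ m) :
    ∃ c : POmega F (quadFormPlus m F), ∀ g, Two c g := by
  obtain ⟨m, rfl⟩ := Nat.exists_eq_add_one_of_ne_zero (by omega : m ≠ 0)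
  obtain ⟨f, D, h0⟩ := exists_NF (Orth.nd_plusQF (m + 1) F).isFormed
    (a := fun i => Pi.single (.inl i) 1) (b := fun i => Pi.single (.inr i) 1)
    (by simp [Orth.plusQF_apply, quadFormPlus]) (by simp [Orth.plusQF_apply, quadFormPlus])
    (by simp [Orth.polar_plusQF]) (by simp [Orth.polar_plusQF])
    (by simp [Orth.polar_plusQF, Pi.single_apply, eq_comm]) (P := (· = 0)) (fun u => by
      simp [Orth.polar_plusQF, Pi.single_apply, funext_iff, and_comm]) fun _ h _ => h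
  exact exists_two_congr (Orth.pOmegaCongr (Orth.plusEquiv _ F))
    (D.exists_two_O (Orth.nd_plusQF _ F) hF (by omega) (.inl fun u => (h0 u).1))

theorem exists_two_odd [Fintype F] (hF : 9 ≤ Fintype.card F) (h2 : (2 : F) ≠ 0) (hm : 3 ≤ m) :
    ∃ c : POmega F (quadFormOdd m F), ∀ g, Two c g := by
  obtain ⟨m, rfl⟩ := Nat.exists_eq_add_one_of_ne_zero (by omega : m ≠ 0)
  obtain ⟨f, D, h0⟩ := exists_NF (Orth.nd_oddQF (m + 1) F h2).isFormed
    (a := fun i => Pi.single (.inr (.inl i)) 1) (b := fun i => Pi.single (.inr (.inr i)) 1)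
    (by simp [Orth.oddQF_apply, quadFormOdd]) (by simp [Orth.oddQF_apply, quadFormOdd])
    (by simp [Orth.polar_oddQF]) (by simp [Orth.polar_oddQF])
    (by simp [Orth.polar_oddQF, Pi.single_apply, eq_comm]) (P := fun u => ∀ i, u (.inr i) = 0) (fun u => by
      simp [Orth.polar_oddQF, Pi.single_apply, and_comm]) fun u h h' => by
        simpa [Orth.oddQF_apply, quadFormOdd, h, funext_iff, Unique.forall_iff] using h'
  exact exists_two_congr (Orth.pOmegaCongr (Orth.oddEquiv _ F))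
    (D.exists_two_O (Orth.nd_oddQF _ F h2) hF (by omega) (.inr ⟨h2, Pi.single (.inl ()) 1,
      (h0 _).2 (by simp), by simp, fun u hu => ⟨u (.inl ()), by simp [funext_iff, (h0 u).1 hu]⟩⟩))

end Cfsg.Agent.Lang
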